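import Cfsg.Agent.H964.Opm.Lv
import Cfsg.Agent.TitsThree.KSideO

/-!
# S4842, `POmega⁺_8(q)`: Levi elements `(A, A^(-T))` from algebras `K × F × ... × F` (helper292)

`V = Fin m ⊕ Fin m → F`, `Q = plusForm m F`.

* `gl m : GL (Fin m) F →* (V ≃ₗ V)`, `gl_mem_O`, `gl_mem_E` (`det A` a square)
* `tz b : Rˣ →* (V ≃ₗ V)`, `R` a commutative algebra with basis `b : Basis (Fin m) F R`; `tz_eq : tz b u = Dg b (u, u⁻¹)`;
  `tz_sq_mem_E`, `tz_mem_E`
* `not_conj` : `φ z`, `φ z'` are not conjugate in `POmega` if some polynomial kills `z`, but neither `z'` nor `-z'`.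
* `Ok F k u` (`u : Kˣ`, `|K : F| = k`, `F(u) = K`, `u⁻¹` not conjugate to `u`); `root_pow`, `Ok.surj`, `Ok.coprime`
* `zz bK u s` : the element `(u; s)`, `R = K × F^l`, `m = k + l`; `Dat`, `dat_zz`, `Pz`, `aeval_Pz`, `zz_aeval_ne`, `zz_aeval_neg_ne`
-/

set_option autoImplicit false
set_option linter.unusedSectionVars false

namespace Cfsg.Agent.H292.OZ

open Cfsg.Agent.LieClassical.OrthCore Cfsg.Agent.LieClassical.OrthTrans Cfsg.Agent.LieClassical.OrthFinite
  Cfsg.Agent.LieClassical.OrthForms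
  Cfsg.Agent.ClassicalGeometry.OrthAut1 Cfsg.Agent.ClassicalGeometry.OrthSemi
  Cfsg.Agent.ClassicalGeometry.OrthSemiForms Cfsg.Agent.H439.Der Cfsg.Agent.H372 Cfsg.Agent.H964.Opm
open Module QuadraticMap Matrix Polynomial

section glsec

variable {F : Type*} [Field F] {m : ℕ}

/-- the element `(A, A^(-T))` -/
noncomputable def gl (m : ℕ) : GL (Fin m) F →* ((Fin m ⊕ Fin m → F) ≃ₗ[F] (Fin m ⊕ Fin m → F)) :=
  (glEquiv (Fin m ⊕ Fin m) F).toMonoidHom.comp (leviGL m)

theorem gl_apply (A : GL (Fin m) F) (v : Fin m ⊕ Fin m → F) :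
    gl m A v = Sum.elim (A.1 *ᵥ (v ∘ Sum.inl)) ((A⁻¹).1ᵀ *ᵥ (v ∘ Sum.inr)) := by
  show ((leviGL m A : GL (Fin m ⊕ Fin m) F) : Matrix (Fin m ⊕ Fin m) (Fin m ⊕ Fin m) F) *ᵥ v = _
  rw [coe_leviGL, fromBlocks_mulVec]
  simp only [zero_mulVec, add_zero, zero_add]

theorem gl_mem_O (A : GL (Fin m) F) : gl m A ∈ O (plusForm m F) := by
  intro v
  have h := mem_isometryGroup_iff.1 (leviGL_mem m A) v
  rw [← coe_plusForm] at h
  exact h

theorem gl_sl_mem_E [Finite F] (hm : 3 ≤ m) (A : SpecialLinearGroup (Fin m) F) :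
    gl m (SpecialLinearGroup.toGL A) ∈ E (plusForm m F) := leviLin_mem_E hm A

/-- **`(A, A^(-T))` is in `E Q` if `det A` is a square.** -/
theorem gl_mem_E [Finite F] (hm : 3 ≤ m) {A : GL (Fin m) F} (h : IsSquare (Matrix.GeneralLinearGroup.det A)) :
    gl m A ∈ E (plusForm m F) := by
  have := Fintype.ofFinite F
  obtain ⟨c, hc⟩ := h
  let i0 : Fin m := ⟨0, by omega⟩
  let B : GL (Fin m) F := Matrix.GeneralLinearGroup.mkOfDetNeZero (Matrix.diagonal (Function.update 1 i0 (c : F))) (by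
    rw [det_diagonal, Finset.prod_update_of_mem (Finset.mem_univ _)]
    simp)
  have hB : Matrix.GeneralLinearGroup.det B = c := by
    apply Units.ext
    show Matrix.det (Matrix.diagonal (Function.update 1 i0 (c : F))) = c
    rw [det_diagonal, Finset.prod_update_of_mem (Finset.mem_univ _)]
    simp
  have h1 : Matrix.GeneralLinearGroup.det (A * (B * B)⁻¹) = 1 := by
    rw [map_mul, map_inv, map_mul, hB, hc, mul_inv_cancel]
  have h2 : (A * (B * B)⁻¹).1.det = 1 := congrArg Units.val h1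
  have h3 : SpecialLinearGroup.toGL (⟨(A * (B * B)⁻¹).1, h2⟩ : SpecialLinearGroup (Fin m) F) = A * (B * B)⁻¹ :=
    Units.ext rfl
  have h4 : gl m (A * (B * B)⁻¹) ∈ E (plusForm m F) := by
    rw [← h3]
    exact gl_sl_mem_E hm _
  have h5 : gl m A = gl m (A * (B * B)⁻¹) * (gl m B * gl m B) := by
    rw [← map_mul, ← map_mul, inv_mul_cancel_right]
  rw [h5]
  exact (E (plusForm m F)).mul_mem h4 (sq_mem_E (good_plus hm) (gl_mem_O B))

end glsec

section torus

variable {F : Type*} [Field F] {m : ℕ} {R : Type*} [CommRing R] [Algebra F R]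

/-- the algebra of the torus -/
noncomputable def Dg (b : Basis (Fin m) F R) : R × R →ₐ[F] Module.End F (Fin m ⊕ Fin m → F) where
  toFun x := Matrix.toLin' (fromBlocks (Algebra.leftMulMatrix b x.1) 0 0 (Algebra.leftMulMatrix b x.2)ᵀ)
  map_one' := by
    rw [Prod.fst_one, Prod.snd_one, map_one, transpose_one, fromBlocks_one, Matrix.toLin'_one]
    rfl
  map_mul' x y := by
    rw [Module.End.mul_eq_comp, ← Matrix.toLin'_mul, fromBlocks_multiply, Prod.fst_mul, Prod.snd_mul, map_mul,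
      mul_comm x.2 y.2, map_mul, transpose_mul]
    simp
  map_zero' := by
    rw [Prod.fst_zero, Prod.snd_zero, map_zero, transpose_zero, fromBlocks_zero, map_zero]
  map_add' x y := by
    rw [← map_add, fromBlocks_add, Prod.fst_add, Prod.snd_add, map_add, map_add, transpose_add, add_zero]
  commutes' r := by
    have h1 : (algebraMap F (R × R) r).1 = algebraMap F R r := rfl
    have h2 : (algebraMap F (R × R) r).2 = algebraMap F R r := rfl
    rw [h1, h2, AlgHom.commutes]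
    ext v i
    rw [LinearMap.comp_apply, LinearMap.comp_apply, Matrix.toLin'_apply, fromBlocks_mulVec,
      Module.algebraMap_end_apply]
    rcases i with i | i
    · simp [Matrix.algebraMap_eq_diagonal, Matrix.mulVec_diagonal]
    · simp [Matrix.algebraMap_eq_diagonal, Matrix.mulVec_diagonal]

theorem Dg_apply (b : Basis (Fin m) F R) (x : R × R) (v : Fin m ⊕ Fin m → F) :
    Dg b x v = Sum.elim (Algebra.leftMulMatrix b x.1 *ᵥ (v ∘ Sum.inl))
      ((Algebra.leftMulMatrix b x.2)ᵀ *ᵥ (v ∘ Sum.inr)) := by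
  show Matrix.toLin' (fromBlocks (Algebra.leftMulMatrix b x.1) 0 0 (Algebra.leftMulMatrix b x.2)ᵀ) v = _
  rw [Matrix.toLin'_apply, fromBlocks_mulVec]
  simp only [zero_mulVec, add_zero, zero_add]

theorem Dg_fst_eq_zero (b : Basis (Fin m) F R) {x : R × R} (h : Dg b x = 0) : x.1 = 0 := by
  apply Algebra.leftMulMatrix_injective b
  rw [map_zero]
  have h1 : Matrix.toLin' (fromBlocks (Algebra.leftMulMatrix b x.1) 0 0 (Algebra.leftMulMatrix b x.2)ᵀ) = 0 := h
  have h2 := (Matrix.toLin' (R := F)).injective (h1.trans (map_zero _).symm)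
  rw [← fromBlocks_zero] at h2
  exact (fromBlocks_inj.1 h2).1

/-- the vector of `W` with coordinates `y` -/
noncomputable def vl (b : Basis (Fin m) F R) : R →ₗ[F] (Fin m ⊕ Fin m → F) where
  toFun y := Sum.elim (b.repr y) 0
  map_add' x y := by
    ext i
    rcases i with i | i <;> simp
  map_smul' a x := by
    ext i
    rcases i with i | i <;> simp

theorem vl_apply (b : Basis (Fin m) F R) (y : R) : vl b y = Sum.elim (b.repr y) 0 := rfl

theorem vl_injective (b : Basis (Fin m) F R) : Function.Injective (vl b) := by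
  intro x y h
  apply b.repr.injective
  ext i
  exact congrFun h (Sum.inl i)

theorem vl_basis (b : Basis (Fin m) F R) (i : Fin m) : vl b (b i) = Pi.single (Sum.inl i) 1 := by
  ext j
  rcases j with j | j
  · rw [vl_apply, Sum.elim_inl, Basis.repr_self, Finsupp.single_apply, Pi.single_apply]
    simp [eq_comm]
  · rw [vl_apply, Sum.elim_inr, Pi.single_apply]
    simp

theorem Dg_vl (b : Basis (Fin m) F R) (x : R × R) (y : R) : Dg b x (vl b y) = vl b (x.1 * y) := by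
  rw [Dg_apply, vl_apply, vl_apply, Sum.elim_comp_inl, Sum.elim_comp_inr, mulVec_zero,
    Algebra.leftMulMatrix_mulVec_repr]

/-- `x.2` acts on the dual space -/
theorem Dg_inr (b : Basis (Fin m) F R) (x : R × R) (i : Fin m) :
    Dg b x (Pi.single (Sum.inr i) 1) = Sum.elim (0 : Fin m → F) (fun j => b.repr (x.2 * b j) i) := by
  rw [Dg_apply]
  have h1 : (Pi.single (Sum.inr i) 1 : Fin m ⊕ Fin m → F) ∘ Sum.inl = 0 := by
    ext j; simp
  have h2 : (Pi.single (Sum.inr i) 1 : Fin m ⊕ Fin m → F) ∘ Sum.inr = Pi.single i 1 := by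
    ext j; simp [Pi.single_apply]
  rw [h1, h2, mulVec_zero, mulVec_single_one]
  congr 1
  ext j
  rw [col_apply, transpose_apply, Algebra.leftMulMatrix_eq_repr_mul]

/-- the torus -/
noncomputable def tz (b : Basis (Fin m) F R) : Rˣ →* ((Fin m ⊕ Fin m → F) ≃ₗ[F] (Fin m ⊕ Fin m → F)) :=
  (gl m).comp (Units.map (Algebra.leftMulMatrix b : R →* _))

theorem tz_eq (b : Basis (Fin m) F R) (ζ : Rˣ) :
    (tz b ζ : Module.End F (Fin m ⊕ Fin m → F)) = Dg b ((ζ : R), ((ζ⁻¹ : Rˣ) : R)) := by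
  refine LinearMap.ext fun v => ?_
  rw [Dg_apply]
  show gl m (Units.map (Algebra.leftMulMatrix b : R →* _) ζ) v = _
  rw [gl_apply, ← map_inv]
  rfl

theorem tz_apply (b : Basis (Fin m) F R) (ζ : Rˣ) (v : Fin m ⊕ Fin m → F) :
    tz b ζ v = Dg b ((ζ : R), ((ζ⁻¹ : Rˣ) : R)) v := LinearMap.congr_fun (tz_eq b ζ) v

theorem tz_vl (b : Basis (Fin m) F R) (ζ : Rˣ) (y : R) : tz b ζ (vl b y) = vl b (ζ * y) := by
  rw [tz_apply, Dg_vl]

theorem tz_mem_O (b : Basis (Fin m) F R) (ζ : Rˣ) : tz b ζ ∈ O (plusForm m F) := gl_mem_O _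

theorem tz_injective (b : Basis (Fin m) F R) : Function.Injective (tz b) := by
  intro x y h
  have h1 : vl b ((x : R) * 1) = vl b ((y : R) * 1) := by rw [← tz_vl, ← tz_vl, h]
  have h2 := vl_injective b h1
  rw [mul_one, mul_one] at h2
  exact Units.ext h2

theorem tz_sq_mem_E [Finite F] (hm : 3 ≤ m) (b : Basis (Fin m) F R) (ζ : Rˣ) : tz b (ζ * ζ) ∈ E (plusForm m F) := by
  have := Fintype.ofFinite F
  rw [map_mul]
  exact sq_mem_E (good_plus hm) (tz_mem_O b ζ)

theorem tz_mem_E [Finite F] (hm : 3 ≤ m) (b : Basis (Fin m) F R) {ζ : Rˣ} {c : F} (hc : c ≠ 0)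
    (h : Algebra.norm F (ζ : R) = c * c) : tz b ζ ∈ E (plusForm m F) := by
  apply gl_mem_E hm
  refine ⟨Units.mk0 c hc, Units.ext ?_⟩
  rw [Units.val_mul, Units.val_mk0, ← h, Algebra.norm_eq_matrix_det b]
  rfl

/-- a polynomial killing `ζ` and `ζ⁻¹` kills `tz b ζ` -/
theorem aeval_tz (b : Basis (Fin m) F R) (ζ : Rˣ) (f : F[X]) :
    aeval (tz b ζ : Module.End F (Fin m ⊕ Fin m → F)) f = Dg b (aeval (ζ : R) f, aeval ((ζ⁻¹ : Rˣ) : R) f) := by
  rw [tz_eq, aeval_algHom_apply]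
  congr 1
  apply Prod.ext
  · have e := aeval_algHom_apply (AlgHom.fst F R R) ((ζ : R), ((ζ⁻¹ : Rˣ) : R)) f
    rw [AlgHom.fst_apply, AlgHom.fst_apply] at e
    exact e.symm
  · have e := aeval_algHom_apply (AlgHom.snd F R R) ((ζ : R), ((ζ⁻¹ : Rˣ) : R)) f
    rw [AlgHom.snd_apply, AlgHom.snd_apply] at e
    exact e.symm

end torus

section conj

variable {F V : Type*} [Field F] [AddCommGroup V] [Module F V] {Q : QuadraticForm F V}

/-- central elements of `E` -/
theorem center_cases (hG : Good Q) {z : ↥(E Q)}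
    (hz : z ∈ Subgroup.center ↥(E Q)) : z = 1 ∨ ∀ v, (z : V ≃ₗ[F] V) v = -v := by
  obtain ⟨c, hc⟩ := center_scalar hG hz
  have h1 := center_sq hG hz
  obtain ⟨x, hx0, -⟩ := hG.sing
  have h2 : (z : V ≃ₗ[F] V) ((z : V ≃ₗ[F] V) x) = x := congrArg (fun w : ↥(E Q) => (w : V ≃ₗ[F] V) x) h1
  rw [hc, hc, smul_smul] at h2
  have h3 : (c * c - 1) • x = 0 := by rw [sub_smul, one_smul, h2, sub_self]
  have h4 : c * c = 1 := by
    rcases smul_eq_zero.1 h3 with h5 | h5
    · exact sub_eq_zero.1 h5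
    · exact absurd h5 hx0
  rcases mul_self_eq_one_iff.1 h4 with h5 | h5
  · left
    apply Subtype.ext
    ext v
    rw [hc, h5, one_smul]
    rfl
  · right
    intro v
    rw [hc, h5, neg_smul, one_smul]

theorem aeval_conj (y z : V ≃ₗ[F] V) {P : F[X]} (hP : aeval (z : Module.End F V) P = 0) :
    aeval ((y * z * y⁻¹ : V ≃ₗ[F] V) : Module.End F V) P = 0 := by
  have h1 : ((y * z * y⁻¹ : V ≃ₗ[F] V) : Module.End F V) = y.conjAlgEquiv F (z : Module.End F V) := by
    ext v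
    rfl
  rw [h1]
  have h2 := aeval_algHom_apply ((y.conjAlgEquiv F : Module.End F V ≃ₐ[F] Module.End F V) :
    Module.End F V →ₐ[F] Module.End F V) (z : Module.End F V) P
  rw [hP, map_zero] at h2
  exact h2

end conj

section conj'

variable {F : Type*} [Field F] {ι : Type} [Fintype ι] [DecidableEq ι] {Q : QuadraticForm F (ι → F)}

local notation "V" => ι → F

/-- **The images in `POmega` are not conjugate.** -/
theorem not_conj (hG : Good Q) {z z' : ↥(E Q)} {P : F[X]} (hP : aeval ((z : V ≃ₗ[F] V) : Module.End F V) P = 0)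
    (h1 : aeval ((z' : V ≃ₗ[F] V) : Module.End F V) P ≠ 0)
    (h2 : aeval (-((z' : V ≃ₗ[F] V) : Module.End F V)) P ≠ 0) (y : Cfsg.POmega F ⇑Q) :
    y * Cfsg.Agent.TitsThree.KSideO.toPOmega hG z * y⁻¹ ≠ Cfsg.Agent.TitsThree.KSideO.toPOmega hG z' := by
  obtain ⟨y, rfl⟩ := Cfsg.Agent.TitsThree.KSideO.toPOmega_surjective hG y
  intro h
  have h3 : Cfsg.Agent.TitsThree.KSideO.toPOmega hG (y * z * y⁻¹ * z'⁻¹) = 1 := by
    rw [map_mul, map_mul, map_mul, map_inv, map_inv, h, mul_inv_cancel]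
  have h4 := aeval_conj (y : V ≃ₗ[F] V) (z : V ≃ₗ[F] V) hP
  rcases center_cases hG (Cfsg.Agent.TitsThree.KSideO.center_of_toPOmega hG h3) with h5 | h5
  · rw [mul_inv_eq_one] at h5
    apply h1
    rw [← h5]
    exact h4
  · apply h2
    have h6 : -((z' : V ≃ₗ[F] V) : Module.End F V) = (((y : V ≃ₗ[F] V) * z * (y : V ≃ₗ[F] V)⁻¹ : V ≃ₗ[F] V) :
        Module.End F V) := by
      refine LinearMap.ext fun v => ?_
      have h7 := h5 ((z' : V ≃ₗ[F] V) v)
      have h8 : ((y * z * y⁻¹ * z'⁻¹ : ↥(E Q)) : V ≃ₗ[F] V) ((z' : V ≃ₗ[F] V) v) =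
          ((y : V ≃ₗ[F] V) * z * (y : V ≃ₗ[F] V)⁻¹ : V ≃ₗ[F] V) v := by
        have h9 : (y * z * y⁻¹ * z'⁻¹ : ↥(E Q)) * z' = y * z * y⁻¹ := by group
        exact congrArg (fun w : ↥(E Q) => (w : V ≃ₗ[F] V) v) h9
      rw [h8] at h7
      exact h7.symm
    rw [h6]
    exact h4

end conj'

section field

variable {F : Type*} [Field F] [Finite F] {K : Type*} [Field K] [Finite K] [Algebra F K]

theorem pow_red {k : ℕ} (hk : finrank F K = k) (x : K) (i : ℕ) :
    x ^ (Nat.card F ^ i) = x ^ (Nat.card F ^ (i % k)) := by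
  have := Fintype.ofFinite K
  have hc : Fintype.card K = Nat.card F ^ k := by
    rw [← Nat.card_eq_fintype_card, Module.natCard_eq_pow_finrank (K := F), hk]
  have key : ∀ j : ℕ, ∀ y : K, y ^ (Nat.card F ^ (k * j)) = y := by
    intro j y
    rw [pow_mul, ← hc]
    exact FiniteField.pow_card_pow j y
  conv_lhs => rw [← Nat.div_add_mod i k, pow_add, pow_mul, key]

/-- roots of the minimal polynomial -/
theorem root_pow {k : ℕ} (hk : finrank F K = k) {u w : K} (h : aeval w (minpoly F u) = 0) :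
    ∃ i < k, w = u ^ (Nat.card F ^ i) := by
  have h3 := isConjRoot_of_aeval_eq_zero (Algebra.IsIntegral.isIntegral u) h
  obtain ⟨τ, hτ⟩ := isConjRoot_iff_exists_algEquiv.1 h3.symm
  have := Fintype.ofFinite F
  obtain ⟨⟨i, hi⟩, rfl⟩ := (FiniteField.bijective_frobeniusAlgEquivOfAlgebraic_pow F K).2 τ
  rw [hk] at hi
  refine ⟨i, hi, ?_⟩
  rw [← hτ, AlgEquiv.coe_pow, FiniteField.coe_frobeniusAlgEquivOfAlgebraic_iterate, Nat.card_eq_fintype_card]

/-- conditions on `u` -/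
structure Ok (F : Type*) [Field F] {K : Type*} [Field K] [Algebra F K] (k : ℕ) (u : Kˣ) : Prop where
  fin : finrank F K = k
  two : 2 ≤ k
  gen : ∀ i, 0 < i → i < k → u ^ (Nat.card F ^ i) ≠ u
  inv : ∀ i, i < k → u ^ (Nat.card F ^ i) ≠ u⁻¹

namespace Ok

variable {k : ℕ} {u : Kˣ} (h : Ok F k u)
include h

theorem surj : Function.Surjective (aeval (u : K) : F[X] →ₐ[F] K) := by
  have hk := h.fin
  have h1 : IntermediateField.adjoin F {(u : K)} = ⊤ := by
    set M := IntermediateField.adjoin F {(u : K)} with hM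
    have h2 : (u : K) ∈ M := IntermediateField.mem_adjoin_simple_self F _
    have h3 : finrank F M ≤ k := by rw [← hk]; exact Submodule.finrank_le M.toSubmodule
    have h4 : 0 < finrank F M := Module.finrank_pos
    have h5 : (u : K) ^ (Nat.card F ^ finrank F M) = u := by
      have := Fintype.ofFinite M
      have h6 : Fintype.card M = Nat.card F ^ finrank F M := by
        rw [← Nat.card_eq_fintype_card, Module.natCard_eq_pow_finrank (K := F)]
      have h7 := FiniteField.pow_card (⟨u, h2⟩ : M)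
      rw [h6] at h7
      exact congrArg Subtype.val h7
    have h8 : finrank F M = k := by
      by_contra hne
      exact h.gen _ h4 (lt_of_le_of_ne h3 hne) (Units.ext (by rw [Units.val_pow_eq_pow_val]; exact h5))
    refine IntermediateField.eq_of_le_of_finrank_eq le_top ?_
    rw [IntermediateField.finrank_top', h8, hk]
  have h2 : Algebra.adjoin F {(u : K)} = ⊤ := by
    rw [← IntermediateField.adjoin_simple_toSubalgebra_of_isAlgebraic (Algebra.IsAlgebraic.isAlgebraic _), h1]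
    rfl
  rw [Algebra.adjoin_singleton_eq_range_aeval] at h2
  exact (AlgHom.range_eq_top _).1 h2

theorem inv' : Ok F k u⁻¹ where
  fin := h.fin
  two := h.two
  gen i h1 h2 h3 := by
    rw [inv_pow, _root_.inv_inj] at h3
    exact h.gen i h1 h2 h3
  inv i h1 h2 := by
    rw [inv_pow, _root_.inv_inj] at h2
    exact h.inv i h1 h2

theorem ne_algebraMap (a : F) : (u : K) ≠ algebraMap F K a := by
  intro h1
  have := Fintype.ofFinite F
  apply h.gen 1 one_pos (by have := h.two; omega)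
  apply Units.ext
  rw [Units.val_pow_eq_pow_val, pow_one, h1, ← map_pow, Nat.card_eq_fintype_card, FiniteField.pow_card]

theorem neg_ne_algebraMap (a : F) : -(u : K) ≠ algebraMap F K a := by
  intro h1
  apply h.ne_algebraMap (-a)
  rw [map_neg, ← h1, neg_neg]

theorem eval_ne (a : F) : (minpoly F (u : K)).eval a ≠ 0 := by
  intro h1
  have h2 : aeval (algebraMap F K a) (minpoly F (u : K)) = 0 := by
    rw [aeval_algebraMap_apply, coe_aeval_eq_eval, h1, map_zero]
  obtain ⟨i, hi, h3⟩ := root_pow h.fin h2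
  have h4 : (algebraMap F K a) ^ (Nat.card F ^ (k - i)) = u := by
    rw [h3, ← pow_mul, ← pow_add, Nat.add_sub_cancel' hi.le, pow_red h.fin, Nat.mod_self, pow_zero, pow_one]
  rw [← map_pow] at h4
  exact h.ne_algebraMap _ h4.symm

theorem coprime : IsCoprime (minpoly F (u : K)) (minpoly F ((u⁻¹ : Kˣ) : K)) := by
  have i1 := minpoly.irreducible (Algebra.IsIntegral.isIntegral (R := F) (u : K))
  have i2 := minpoly.irreducible (Algebra.IsIntegral.isIntegral (R := F) ((u⁻¹ : Kˣ) : K))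
  rw [i1.coprime_iff_not_dvd]
  intro h1
  have h2 : aeval ((u⁻¹ : Kˣ) : K) (minpoly F (u : K)) = 0 := by
    have h3 := i1.associated_of_dvd i2 h1
    have h4 := eq_of_monic_of_associated (minpoly.monic (Algebra.IsIntegral.isIntegral _))
      (minpoly.monic (Algebra.IsIntegral.isIntegral _)) h3
    rw [h4]
    exact minpoly.aeval _ _
  obtain ⟨i, hi, h3⟩ := root_pow h.fin h2
  exact h.inv i hi (Units.ext (by rw [Units.val_pow_eq_pow_val]; exact h3.symm))

end Ok

end field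

section prod

variable {F : Type*} [Field F] {K : Type*} [Field K] [Algebra F K] {k l : ℕ}

/-- the basis of `K × F × ... × F` -/
noncomputable def bb (bK : Basis (Fin k) F K) (l : ℕ) : Basis (Fin (k + l)) F (K × (Fin l → F)) :=
  (bK.prod (Pi.basisFun F (Fin l))).reindex finSumFinEquiv

theorem bb_castAdd (bK : Basis (Fin k) F K) (i : Fin k) : bb bK l (Fin.castAdd l i) = (bK i, 0) := by
  rw [bb, Basis.reindex_apply, finSumFinEquiv_symm_apply_castAdd, Basis.prod_apply]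
  simp

theorem bb_natAdd (bK : Basis (Fin k) F K) (j : Fin l) : bb bK l (Fin.natAdd k j) = (0, Pi.single j 1) := by
  rw [bb, Basis.reindex_apply, finSumFinEquiv_symm_apply_natAdd, Basis.prod_apply]
  simp

theorem bb_repr_castAdd (bK : Basis (Fin k) F K) (y : K × (Fin l → F)) (i : Fin k) :
    (bb bK l).repr y (Fin.castAdd l i) = bK.repr y.1 i := by
  rw [bb, Basis.repr_reindex, Finsupp.mapDomain_equiv_apply, finSumFinEquiv_symm_apply_castAdd]
  rfl

theorem bb_repr_natAdd (bK : Basis (Fin k) F K) (y : K × (Fin l → F)) (j : Fin l) :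
    (bb bK l).repr y (Fin.natAdd k j) = y.2 j := by
  rw [bb, Basis.repr_reindex, Finsupp.mapDomain_equiv_apply, finSumFinEquiv_symm_apply_natAdd]
  rfl

/-- the unit `(u; s)` -/
noncomputable def ur (u : Kˣ) (s : Fin l → Fˣ) : (K × (Fin l → F))ˣ where
  val := (u, fun j => s j)
  inv := ((u⁻¹ : Kˣ), fun j => ((s j)⁻¹ : Fˣ))
  val_inv := by
    ext
    · simp
    · simp
  inv_val := by
    ext
    · simp
    · simp

theorem ur_val (u : Kˣ) (s : Fin l → Fˣ) : ((ur u s : (K × (Fin l → F))ˣ) : K × (Fin l → F)) = ((u : K), fun j => (s j : F)) := rfl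

theorem ur_inv (u : Kˣ) (s : Fin l → Fˣ) : (ur u s)⁻¹ = ur u⁻¹ (fun j => (s j)⁻¹) := Units.ext rfl

theorem ur_mul (u u' : Kˣ) (s s' : Fin l → Fˣ) : ur u s * ur u' s' = ur (u * u') (fun j => s j * s' j) := Units.ext rfl

theorem norm_ur [FiniteDimensional F K] (u : Kˣ) (s : Fin l → Fˣ) :
    Algebra.norm F ((ur u s : (K × (Fin l → F))ˣ) : K × (Fin l → F)) = Algebra.norm F (u : K) * ∏ j, (s j : F) := by
  rw [ur_val, Algebra.norm_apply]
  have h1 : (LinearMap.mul F (K × (Fin l → F))) ((u : K), fun j => (s j : F)) =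
      LinearMap.prodMap (LinearMap.mul F K u) (Matrix.toLin' (Matrix.diagonal fun j => (s j : F))) := by
    refine LinearMap.ext fun x => ?_
    apply Prod.ext
    · rfl
    · ext j
      show (s j : F) * x.2 j = Matrix.toLin' (Matrix.diagonal fun j => (s j : F)) x.2 j
      rw [Matrix.toLin'_apply, Matrix.mulVec_diagonal]
  have h2 : (Algebra.lmul F (K × (Fin l → F))) ((u : K), fun j => (s j : F)) =
      (LinearMap.mul F (K × (Fin l → F))) ((u : K), fun j => (s j : F)) := rfl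
  rw [h2, h1, LinearMap.det_prodMap, LinearMap.det_toLin', det_diagonal]
  rfl

theorem aeval_ur (u : Kˣ) (s : Fin l → Fˣ) (f : F[X]) :
    aeval ((ur u s : (K × (Fin l → F))ˣ) : K × (Fin l → F)) f = (aeval (u : K) f, fun j => f.eval (s j : F)) := by
  apply Prod.ext
  · have e := aeval_algHom_apply (AlgHom.fst F K (Fin l → F)) ((ur u s : (K × (Fin l → F))ˣ) : K × (Fin l → F)) f
    rw [AlgHom.fst_apply, AlgHom.fst_apply] at e
    exact e.symm
  · ext j
    have e := aeval_algHom_apply ((Pi.evalAlgHom F (fun _ : Fin l => F) j).comp (AlgHom.snd F K (Fin l → F)))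
      ((ur u s : (K × (Fin l → F))ˣ) : K × (Fin l → F)) f
    have e2 : aeval (s j : F) f = f.eval (s j : F) := by rw [coe_aeval_eq_eval]
    exact e.symm.trans e2

/-- the element of `E Q` -/
noncomputable def zz (bK : Basis (Fin k) F K) (u : Kˣ) (s : Fin l → Fˣ) :
    (Fin (k + l) ⊕ Fin (k + l) → F) ≃ₗ[F] (Fin (k + l) ⊕ Fin (k + l) → F) := tz (bb bK l) (ur u s)

theorem zz_inl (bK : Basis (Fin k) F K) (u : Kˣ) (s : Fin l → Fˣ) (j : Fin l) :
    zz bK u s (Pi.single (Sum.inl (Fin.natAdd k j)) 1) = (s j : F) • Pi.single (Sum.inl (Fin.natAdd k j)) 1 := by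
  rw [← vl_basis (bb bK l), zz, tz_vl, bb_natAdd, ur_val, ← map_smul]
  congr 1
  apply Prod.ext
  · simp
  · ext i
    by_cases h : i = j
    · subst h; simp
    · simp [h]

theorem zz_inr (bK : Basis (Fin k) F K) (u : Kˣ) (s : Fin l → Fˣ) (j : Fin l) :
    zz bK u s (Pi.single (Sum.inr (Fin.natAdd k j)) 1) = ((s j : F)⁻¹) • Pi.single (Sum.inr (Fin.natAdd k j)) 1 := by
  rw [zz, tz_apply, Dg_inr, ur_inv, ur_val]
  ext i
  rcases i with i | i
  · simp
  · rw [Sum.elim_inr, bb_repr_natAdd, Pi.smul_apply, smul_eq_mul]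
    refine Fin.addCases (fun i => ?_) (fun i => ?_) i
    · rw [bb_castAdd]
      have h1 : Fin.castAdd l i ≠ Fin.natAdd k j := by
        intro h
        have h2 := congrArg Fin.val h
        rw [Fin.val_castAdd, Fin.val_natAdd] at h2
        have := i.2
        omega
      rw [Pi.single_eq_of_ne (fun h => h1 (Sum.inr_injective h))]
      simp
    · rw [bb_natAdd]
      by_cases h : i = j
      · subst h
        simp [ur_val]
      · rw [Pi.single_eq_of_ne (fun h' => h ((Fin.natAdd_injective _ _ (Sum.inr_injective h'))))]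
        simp [Ne.symm h]

theorem zz_f (bK : Basis (Fin k) F K) (u : Kˣ) (s : Fin l → Fˣ) {f : F[X]} (hf : aeval (u : K) f = 0) (i : Fin k) :
    aeval (zz bK u s : Module.End F (Fin (k + l) ⊕ Fin (k + l) → F)) f (Pi.single (Sum.inl (Fin.castAdd l i)) 1) = 0 := by
  rw [zz, aeval_tz, ← vl_basis (bb bK l), Dg_vl, aeval_ur, hf, bb_castAdd]
  have h1 : ((0 : K), fun j => f.eval (s j : F)) * (bK i, (0 : Fin l → F)) = 0 := by
    apply Prod.ext
    · simp
    · ext j; simp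
  rw [h1, map_zero]

theorem zz_f' (bK : Basis (Fin k) F K) (u : Kˣ) (s : Fin l → Fˣ) {f : F[X]} (hf : aeval ((u⁻¹ : Kˣ) : K) f = 0)
    (i : Fin k) :
    aeval (zz bK u s : Module.End F (Fin (k + l) ⊕ Fin (k + l) → F)) f (Pi.single (Sum.inr (Fin.castAdd l i)) 1) = 0 := by
  rw [zz, aeval_tz, Dg_inr, ur_inv, aeval_ur u⁻¹, hf]
  ext j
  rcases j with j | j
  · rfl
  · rw [Sum.elim_inr, bb_repr_castAdd]
    simp

/-- polynomials preserve invariant subspaces -/
theorem aeval_mem {V : Type*} [AddCommGroup V] [Module F V] (z : Module.End F V) {M : Submodule F V}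
    (hz : ∀ v ∈ M, z v ∈ M) (f : F[X]) {v : V} (hv : v ∈ M) : aeval z f v ∈ M := by
  have h1 : ∀ n : ℕ, (z ^ n) v ∈ M := by
    intro n
    induction n with
    | zero => rw [pow_zero]; exact hv
    | succ n ih =>
      rw [pow_succ']
      exact hz _ ih
  rw [aeval_eq_sum_range, LinearMap.sum_apply]
  exact M.sum_mem fun i _ => by
    rw [LinearMap.smul_apply]
    exact M.smul_mem _ (h1 i)

/-- **Irreducibility.** -/
theorem zz_irr (bK : Basis (Fin k) F K) {u : Kˣ} (hu : Function.Surjective (aeval (u : K) : F[X] →ₐ[F] K))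
    (s : Fin l → Fˣ) {M : Submodule F (Fin (k + l) ⊕ Fin (k + l) → F)}
    (hM : ∀ v ∈ M, (∀ i, v (Sum.inr i) = 0) ∧ ∀ j : Fin l, v (Sum.inl (Fin.natAdd k j)) = 0)
    (hz : ∀ v ∈ M, zz bK u s v ∈ M) (hne : M ≠ ⊥) (y : K) : vl (bb bK l) (y, 0) ∈ M := by
  obtain ⟨v, hv, hv0⟩ := M.ne_bot_iff.1 hne
  obtain ⟨h1, h2⟩ := hM v hv
  obtain ⟨w, hw⟩ : ∃ w, vl (bb bK l) w = v := by
    refine ⟨(bb bK l).equivFun.symm (v ∘ Sum.inl), ?_⟩
    rw [vl_apply]
    ext i
    rcases i with i | i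
    · rw [Sum.elim_inl]
      exact congrFun ((bb bK l).equivFun.apply_symm_apply (v ∘ Sum.inl)) i
    · rw [Sum.elim_inr, h1 i]
      rfl
  have h3 : w.2 = 0 := by
    ext j
    rw [← bb_repr_natAdd bK w j]
    have h4 := h2 j
    rw [← hw, vl_apply, Sum.elim_inl] at h4
    exact h4
  have h4 : w.1 ≠ 0 := by
    intro h5
    apply hv0
    have h6 : w = 0 := Prod.ext h5 h3
    rw [← hw, h6, map_zero]
  obtain ⟨f, hf⟩ := hu (y * w.1⁻¹)
  have h5 := aeval_mem (zz bK u s : Module.End F (Fin (k + l) ⊕ Fin (k + l) → F)) hz f hv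
  rw [zz, aeval_tz, ← hw, Dg_vl, aeval_ur, hf] at h5
  have h6 : (y * w.1⁻¹, fun j => f.eval (s j : F)) * w = (y, 0) := by
    apply Prod.ext
    · show y * w.1⁻¹ * w.1 = y
      rw [mul_assoc, inv_mul_cancel₀ h4, mul_one]
    · show (fun j => f.eval (s j : F)) * w.2 = 0
      rw [h3, mul_zero]
  rwa [h6] at h5

/-- `z` acts irreducibly on `⟨e_i : i < k⟩`; `f` kills it, `f'` kills `⟨f_i : i < k⟩`; for `k ≤ i`, `z e_i = s i • e_i` and
`z f_i = (s i)⁻¹ • f_i`. Here `e_i = Pi.single (Sum.inl i) 1`, `f_i = Pi.single (Sum.inr i) 1`. -/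
structure Dat {F : Type*} [Field F] {m : ℕ} (k : ℕ) (s : Fin m → F)
    (z : (Fin m ⊕ Fin m → F) ≃ₗ[F] (Fin m ⊕ Fin m → F)) (f f' : F[X]) : Prop where
  mem : z ∈ E (plusForm m F)
  cop : IsCoprime f f'
  ev : ∀ a : F, f.eval a ≠ 0
  ev' : ∀ a : F, f'.eval a ≠ 0
  kf : ∀ i : Fin m, (i : ℕ) < k →
    aeval (z : Module.End F (Fin m ⊕ Fin m → F)) f (Pi.single (Sum.inl i) 1) = 0
  kf' : ∀ i : Fin m, (i : ℕ) < k →
    aeval (z : Module.End F (Fin m ⊕ Fin m → F)) f' (Pi.single (Sum.inr i) 1) = 0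
  sl : ∀ i : Fin m, k ≤ (i : ℕ) → z (Pi.single (Sum.inl i) 1) = s i • Pi.single (Sum.inl i) 1
  sr : ∀ i : Fin m, k ≤ (i : ℕ) → z (Pi.single (Sum.inr i) 1) = (s i)⁻¹ • Pi.single (Sum.inr i) 1
  pl : ∀ v : Fin m ⊕ Fin m → F, (∀ i, v (Sum.inr i) = 0) → (∀ i : Fin m, k ≤ (i : ℕ) → v (Sum.inl i) = 0) →
    (∀ i, z v (Sum.inr i) = 0) ∧ ∀ i : Fin m, k ≤ (i : ℕ) → z v (Sum.inl i) = 0
  irr : ∀ M : Submodule F (Fin m ⊕ Fin m → F),
    (∀ v ∈ M, (∀ i, v (Sum.inr i) = 0) ∧ ∀ i : Fin m, k ≤ (i : ℕ) → v (Sum.inl i) = 0) →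
    (∀ v ∈ M, z v ∈ M) → M ≠ ⊥ → ∀ i : Fin m, (i : ℕ) < k → Pi.single (Sum.inl i) 1 ∈ M

theorem dat_zz [Finite F] [Finite K] (bK : Basis (Fin k) F K) {u : Kˣ} (hu : Ok F k u) (s : Fin (k + l) → Fˣ)
    (hE : zz bK u (fun j => s (Fin.natAdd k j)) ∈ E (plusForm (k + l) F)) :
    Dat k (fun i => (s i : F)) (zz bK u (fun j => s (Fin.natAdd k j))) (minpoly F (u : K))
      (minpoly F ((u⁻¹ : Kˣ) : K)) where
  mem := hE
  cop := hu.coprime
  ev := hu.eval_ne
  ev' := hu.inv'.eval_ne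
  kf i hi := by
    have h1 : i = Fin.castAdd l ⟨i, hi⟩ := Fin.ext rfl
    rw [h1]
    exact zz_f bK u _ (minpoly.aeval _ _) _
  kf' i hi := by
    have h1 : i = Fin.castAdd l ⟨i, hi⟩ := Fin.ext rfl
    rw [h1]
    exact zz_f' bK u _ (minpoly.aeval _ _) _
  sl i hi := by
    have h1 : i = Fin.natAdd k ⟨i - k, by have := i.2; omega⟩ := Fin.ext (by
      rw [Fin.val_natAdd]
      show (i : ℕ) = k + ((i : ℕ) - k)
      omega)
    rw [h1]
    exact zz_inl bK u (fun j => s (Fin.natAdd k j)) _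
  sr i hi := by
    have h1 : i = Fin.natAdd k ⟨i - k, by have := i.2; omega⟩ := Fin.ext (by
      rw [Fin.val_natAdd]
      show (i : ℕ) = k + ((i : ℕ) - k)
      omega)
    rw [h1]
    exact zz_inr bK u (fun j => s (Fin.natAdd k j)) _
  pl v h1 h2 := by
    obtain ⟨w, hw⟩ : ∃ w, vl (bb bK l) w = v := by
      refine ⟨(bb bK l).equivFun.symm (v ∘ Sum.inl), ?_⟩
      rw [vl_apply]
      ext i
      rcases i with i | i
      · rw [Sum.elim_inl]
        exact congrFun ((bb bK l).equivFun.apply_symm_apply (v ∘ Sum.inl)) i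
      · rw [Sum.elim_inr, h1 i]
        rfl
    rw [← hw, zz, tz_vl]
    refine ⟨fun i => rfl, fun i hi => ?_⟩
    have h3 : i = Fin.natAdd k ⟨i - k, by have := i.2; omega⟩ := Fin.ext (by
      rw [Fin.val_natAdd]
      show (i : ℕ) = k + ((i : ℕ) - k)
      omega)
    have h4 := h2 i hi
    rw [← hw, vl_apply, Sum.elim_inl] at h4
    rw [vl_apply, Sum.elim_inl]
    rw [h3, bb_repr_natAdd] at h4 ⊢
    rw [Prod.snd_mul, Pi.mul_apply, h4, mul_zero]
  irr M hM hz hne i hi := by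
    have h1 : i = Fin.castAdd l ⟨i, hi⟩ := Fin.ext rfl
    rw [h1, ← vl_basis (bb bK l), bb_castAdd]
    refine zz_irr bK hu.surj _ (fun v hv => ⟨(hM v hv).1, fun j => (hM v hv).2 _ ?_⟩) hz hne _
    rw [Fin.val_natAdd]
    exact Nat.le_add_right _ _

/-- the polynomial killing `zz bK u s` -/
noncomputable def Pz (u : Kˣ) (s : Fin l → Fˣ) : F[X] :=
  minpoly F (u : K) * minpoly F ((u⁻¹ : Kˣ) : K) * ∏ j, ((X - C (s j : F)) * (X - C ((s j)⁻¹ : F)))

theorem aeval_Pz (bK : Basis (Fin k) F K) (u : Kˣ) (s : Fin l → Fˣ) :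
    aeval (zz bK u s : Module.End F (Fin (k + l) ⊕ Fin (k + l) → F)) (Pz u s) = 0 := by
  have h1 : ∀ j, (Pz u s).eval (s j : F) = 0 := by
    intro j
    rw [Pz, eval_mul, eval_prod, Finset.prod_eq_zero (Finset.mem_univ j), mul_zero]
    simp
  have h2 : ∀ j, (Pz u s).eval (((s j)⁻¹ : Fˣ) : F) = 0 := by
    intro j
    rw [Pz, eval_mul, eval_prod, Finset.prod_eq_zero (Finset.mem_univ j), mul_zero]
    simp
  rw [zz, aeval_tz, ur_inv, aeval_ur, aeval_ur]
  have h3 : (aeval (u : K) (Pz u s), fun j => (Pz u s).eval (s j : F)) = (0 : K × (Fin l → F)) := by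
    apply Prod.ext
    · show aeval (u : K) (Pz u s) = 0
      rw [Pz, map_mul, map_mul, minpoly.aeval, zero_mul, zero_mul]
    · ext j; exact h1 j
  have h4 : (aeval ((u⁻¹ : Kˣ) : K) (Pz u s), fun j => (Pz u s).eval (((s j)⁻¹ : Fˣ) : F)) = (0 : K × (Fin l → F)) := by
    apply Prod.ext
    · show aeval ((u⁻¹ : Kˣ) : K) (Pz u s) = 0
      rw [Pz, map_mul, map_mul, minpoly.aeval F ((u⁻¹ : Kˣ) : K), mul_zero, zero_mul]
    · ext j; exact h2 j
  rw [h3, h4]
  exact map_zero _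

/-- `x` is no root -/
theorem Pz_ne (u : Kˣ) (s : Fin l → Fˣ) {x : K} (h1 : aeval x (minpoly F (u : K)) ≠ 0)
    (h2 : aeval x (minpoly F ((u⁻¹ : Kˣ) : K)) ≠ 0) (h3 : ∀ a : F, x ≠ algebraMap F K a) : aeval x (Pz u s) ≠ 0 := by
  rw [Pz, map_mul, map_mul, map_prod]
  refine mul_ne_zero (mul_ne_zero h1 h2) (Finset.prod_ne_zero_iff.2 fun j _ => ?_)
  rw [map_mul, map_sub, map_sub, aeval_X, aeval_C, aeval_C]
  exact mul_ne_zero (sub_ne_zero.2 (h3 _)) (sub_ne_zero.2 (h3 _))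

theorem zz_aeval_ne (bK : Basis (Fin k) F K) {u u' : Kˣ} {s s' : Fin l → Fˣ} (h : aeval (u' : K) (Pz u s) ≠ 0) :
    aeval (zz bK u' s' : Module.End F (Fin (k + l) ⊕ Fin (k + l) → F)) (Pz u s) ≠ 0 := by
  intro h1
  rw [zz, aeval_tz, aeval_ur] at h1
  exact h (congrArg Prod.fst (Dg_fst_eq_zero _ h1))

theorem zz_aeval_neg_ne (bK : Basis (Fin k) F K) {u u' : Kˣ} {s s' : Fin l → Fˣ} (h : aeval (-(u' : K)) (Pz u s) ≠ 0) :
    aeval (-(zz bK u' s' : Module.End F (Fin (k + l) ⊕ Fin (k + l) → F))) (Pz u s) ≠ 0 := by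
  have e : -(zz bK u' s' : Module.End F (Fin (k + l) ⊕ Fin (k + l) → F)) = zz bK (-u') (fun j => -s' j) := by
    rw [zz, zz, tz_eq, tz_eq, ← map_neg]
    congr 1
  rw [e]
  refine zz_aeval_ne bK ?_
  rw [Units.val_neg]
  exact h

end prod

end Cfsg.Agent.H292.OZ
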