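import Cfsg.Agent.H292.OZ.Gl

/-!
# S4842, `POmega⁺_8(q)`, `q ≥ 3`: two classes of elements acting irreducibly on `⟨e_i : i < k⟩` (helper292)

`exists_four`, `exists_three`, `exists_two`, `exists_two_one`; for `q = 3`: `exists_four_three`, `exists_two_three`.
-/

set_option autoImplicit false
set_option linter.unusedSectionVars false

namespace Cfsg.Agent.H292.OZ

open Cfsg.Agent.LieClassical.OrthCore Cfsg.Agent.LieClassical.OrthTrans Cfsg.Agent.LieClassical.OrthFinite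
  Cfsg.Agent.LieClassical.OrthForms Cfsg.Agent.TitsThree.KSideO
open Module QuadraticMap Matrix Polynomial

section num

theorem num_big {q k i : ℕ} (hq : 5 ≤ q) (hk : 3 ≤ k) (hi : i < k) :
    ¬ ((q : ℤ) ^ k - 1 ∣ 4 * ((q : ℤ) ^ i + 1)) ∧ (0 < i → ¬ ((q : ℤ) ^ k - 1 ∣ 4 * ((q : ℤ) ^ i - 1))) ∧
      ¬ ((q : ℤ) ^ k - 1 ∣ 4 * (2 - (q : ℤ) ^ i)) ∧ ¬ ((q : ℤ) ^ k - 1 ∣ 4 * (2 + (q : ℤ) ^ i)) := by
  have hq' : (5 : ℤ) ≤ q := by exact_mod_cast hq
  have h1 : (q : ℤ) ^ i ≤ (q : ℤ) ^ (k - 1) := pow_le_pow_right₀ (by linarith) (by omega)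
  have h2 : (q : ℤ) ^ k = q * (q : ℤ) ^ (k - 1) := by rw [← pow_succ']; congr 1; omega
  have h3 : (q : ℤ) ^ 2 ≤ (q : ℤ) ^ (k - 1) := pow_le_pow_right₀ (by linarith) (by omega)
  have h4 : (25 : ℤ) ≤ (q : ℤ) ^ (k - 1) := by nlinarith
  have h5 : 5 * (q : ℤ) ^ (k - 1) ≤ (q : ℤ) ^ k := by rw [h2]; nlinarith
  have h6 : (1 : ℤ) ≤ (q : ℤ) ^ i := one_le_pow₀ (by linarith)
  have h7 : 0 < i → (5 : ℤ) ≤ (q : ℤ) ^ i := by
    intro h0
    calc (5 : ℤ) ≤ q := hq'
      _ = (q : ℤ) ^ 1 := (pow_one _).symm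
      _ ≤ (q : ℤ) ^ i := pow_le_pow_right₀ (by linarith) h0
  refine ⟨fun h => ?_, fun h0 h => ?_, fun h => ?_, fun h => ?_⟩
  · have := Int.le_of_dvd (by linarith) h
    linarith
  · have := h7 h0
    have := Int.le_of_dvd (by linarith) h
    linarith
  · rcases Nat.eq_zero_or_pos i with h0 | h0
    · subst h0
      rw [pow_zero] at h
      have := Int.le_of_dvd (by norm_num) h
      linarith
    · have h8 := h7 h0
      rw [← dvd_neg] at h
      have := Int.le_of_dvd (by linarith) h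
      linarith
  · have := Int.le_of_dvd (by linarith) h
    linarith

theorem num {q k i : ℕ} (hq : 3 ≤ q) (hk : k = 3 ∨ k = 4) (hi : i < k) :
    ¬ ((q : ℤ) ^ k - 1 ∣ 4 * ((q : ℤ) ^ i + 1)) ∧ (0 < i → ¬ ((q : ℤ) ^ k - 1 ∣ 4 * ((q : ℤ) ^ i - 1))) ∧
      ¬ ((q : ℤ) ^ k - 1 ∣ 4 * (2 - (q : ℤ) ^ i)) ∧ ¬ ((q : ℤ) ^ k - 1 ∣ 4 * (2 + (q : ℤ) ^ i)) := by
  rcases Nat.lt_or_ge q 5 with h5 | h5
  · have h6 : q = 3 ∨ q = 4 := by omega
    rcases hk with rfl | rfl <;> rcases h6 with rfl | rfl <;> interval_cases i <;> norm_num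
  · exact num_big h5 (by omega) hi

/-- degree two -/
theorem num_two {q i : ℕ} (hq : 4 ≤ q) (hi : i < 2) :
    ¬ ((q : ℤ) ^ 2 - 1 ∣ 2 * ((q : ℤ) ^ i + 1)) ∧ (0 < i → ¬ ((q : ℤ) ^ 2 - 1 ∣ 2 * ((q : ℤ) ^ i - 1))) ∧
      ¬ ((q : ℤ) ^ 2 - 1 ∣ 2 * (2 - (q : ℤ) ^ i)) ∧ ¬ ((q : ℤ) ^ 2 - 1 ∣ 2 * (2 + (q : ℤ) ^ i)) := by
  have hq' : (4 : ℤ) ≤ q := by exact_mod_cast hq
  have h2 : 4 * (q : ℤ) ≤ (q : ℤ) ^ 2 := by nlinarith
  have h6 : i = 0 ∨ i = 1 := by omega
  rcases h6 with rfl | rfl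
  · rw [pow_zero]
    refine ⟨fun h => ?_, fun h0 => absurd h0 (lt_irrefl _), fun h => ?_, fun h => ?_⟩
    · have := Int.le_of_dvd (by norm_num) h
      linarith
    · have := Int.le_of_dvd (by norm_num) h
      linarith
    · have := Int.le_of_dvd (by norm_num) h
      linarith
  · rw [pow_one]
    refine ⟨fun h => ?_, fun _ h => ?_, fun h => ?_, fun h => ?_⟩
    · have := Int.le_of_dvd (by linarith) h
      linarith
    · have := Int.le_of_dvd (by linarith) h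
      linarith
    · rw [← dvd_neg] at h
      have := Int.le_of_dvd (by linarith) h
      linarith
    · have := Int.le_of_dvd (by linarith) h
      linarith

theorem num_one {q i : ℕ} (hq : 3 ≤ q) (hi : i < 2) :
    ¬ ((q : ℤ) ^ 2 - 1 ∣ (q : ℤ) ^ i + 1) ∧ (0 < i → ¬ ((q : ℤ) ^ 2 - 1 ∣ (q : ℤ) ^ i - 1)) := by
  have hq' : (3 : ℤ) ≤ q := by exact_mod_cast hq
  have h2 : 3 * (q : ℤ) ≤ (q : ℤ) ^ 2 := by nlinarith
  have h6 : i = 0 ∨ i = 1 := by omega
  rcases h6 with rfl | rfl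
  · rw [pow_zero]
    refine ⟨fun h => ?_, fun h0 => absurd h0 (lt_irrefl _)⟩
    have := Int.le_of_dvd (by norm_num) h
    linarith
  · rw [pow_one]
    refine ⟨fun h => ?_, fun _ h => ?_⟩
    · have := Int.le_of_dvd (by linarith) h
      linarith
    · have := Int.le_of_dvd (by linarith) h
      linarith

end num

section gen

variable {F : Type*} [Field F] [Finite F] {K : Type*} [Field K] [Finite K] [Algebra F K] {k l : ℕ} {g : Kˣ}

theorem zpow_iff {N : ℤ} (ho : (orderOf g : ℤ) = N) (a b : ℤ) : g ^ a = g ^ b ↔ N ∣ a - b := by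
  rw [zpow_eq_zpow_iff_modEq, Int.modEq_comm, Int.modEq_iff_dvd, ho]

theorem ok_pow (ho : (orderOf g : ℤ) = (Nat.card F : ℤ) ^ k - 1) (hk : finrank F K = k) (hk2 : 2 ≤ k) {e : ℕ}
    (h1 : ∀ i, i < k → ¬ ((Nat.card F : ℤ) ^ k - 1 ∣ e * ((Nat.card F : ℤ) ^ i + 1)))
    (h2 : ∀ i, i < k → 0 < i → ¬ ((Nat.card F : ℤ) ^ k - 1 ∣ e * ((Nat.card F : ℤ) ^ i - 1))) : Ok F k (g ^ e) where
  fin := hk
  two := hk2
  gen i h0 hi h := by
    apply h2 i hi h0
    rw [← pow_mul, ← zpow_natCast, ← zpow_natCast, zpow_iff ho] at h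
    have e1 : ((e * Nat.card F ^ i : ℕ) : ℤ) - (e : ℕ) = e * ((Nat.card F : ℤ) ^ i - 1) := by push_cast; ring
    rwa [e1] at h
  inv i hi h := by
    apply h1 i hi
    rw [← pow_mul, ← zpow_natCast, ← zpow_natCast, ← _root_.zpow_neg, zpow_iff ho] at h
    have e1 : ((e * Nat.card F ^ i : ℕ) : ℤ) - -(e : ℕ) = e * ((Nat.card F : ℤ) ^ i + 1) := by push_cast; ring
    rwa [e1] at h

/-- `± g^(2e)` is no root of the minimal polynomial of `g^e`, `g^(-e)` -/
theorem root_ne (ho : (orderOf g : ℤ) = (Nat.card F : ℤ) ^ k - 1) (hk : finrank F K = k) {e : ℕ}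
    (h1 : ∀ i, i < k → ¬ ((Nat.card F : ℤ) ^ k - 1 ∣ 2 * e * (2 - (Nat.card F : ℤ) ^ i)))
    (h2 : ∀ i, i < k → ¬ ((Nat.card F : ℤ) ^ k - 1 ∣ 2 * e * (2 + (Nat.card F : ℤ) ^ i))) {x : K}
    (hx : x = ((g ^ (2 * e) : Kˣ) : K) ∨ x = -((g ^ (2 * e) : Kˣ) : K)) :
    aeval x (minpoly F ((g ^ e : Kˣ) : K)) ≠ 0 ∧ aeval x (minpoly F (((g ^ e)⁻¹ : Kˣ) : K)) ≠ 0 := by
  have hx2 : x ^ 2 = ((g ^ ((4 * e : ℕ) : ℤ) : Kˣ) : K) := by
    have e1 : x ^ 2 = ((g ^ (2 * e) : Kˣ) : K) ^ 2 := by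
      rcases hx with h | h
      · rw [h]
      · rw [h, neg_sq]
    rw [e1, ← Units.val_pow_eq_pow_val, ← pow_mul, zpow_natCast]
    congr 2
    ring
  constructor
  · intro h
    obtain ⟨i, hi, h3⟩ := root_pow hk h
    apply h1 i hi
    have h4 : g ^ ((4 * e : ℕ) : ℤ) = g ^ ((2 * e * Nat.card F ^ i : ℕ) : ℤ) := by
      apply Units.ext
      rw [← hx2, h3, zpow_natCast, ← Units.val_pow_eq_pow_val, ← Units.val_pow_eq_pow_val, ← pow_mul, ← pow_mul]
      congr 2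
      ring
    rw [zpow_iff ho] at h4
    have e1 : ((4 * e : ℕ) : ℤ) - ((2 * e * Nat.card F ^ i : ℕ) : ℤ) = 2 * e * (2 - (Nat.card F : ℤ) ^ i) := by
      push_cast; ring
    rwa [e1] at h4
  · intro h
    obtain ⟨i, hi, h3⟩ := root_pow hk h
    apply h2 i hi
    have h4 : g ^ ((4 * e : ℕ) : ℤ) = g ^ (-((2 * e * Nat.card F ^ i : ℕ) : ℤ)) := by
      apply Units.ext
      rw [← hx2, h3, _root_.zpow_neg, zpow_natCast, ← Units.val_pow_eq_pow_val, ← Units.val_pow_eq_pow_val, inv_pow, inv_pow,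
        ← pow_mul, ← pow_mul]
      congr 3
      ring
    rw [zpow_iff ho] at h4
    have e1 : ((4 * e : ℕ) : ℤ) - -((2 * e * Nat.card F ^ i : ℕ) : ℤ) = 2 * e * (2 + (Nat.card F : ℤ) ^ i) := by
      push_cast; ring
    rwa [e1] at h4

theorem zz_mul (bK : Basis (Fin k) F K) (u u' : Kˣ) (s s' : Fin l → Fˣ) :
    zz bK u s * zz bK u' s' = zz bK (u * u') (fun j => s j * s' j) := by
  rw [zz, zz, ← map_mul, ur_mul]
  rfl

/-- **The pair `z`, `z ^ 2`.** -/
theorem pair (hG : Good (plusForm (k + l) F)) (bK : Basis (Fin k) F K) (hk2 : 2 ≤ k)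
    (ho : (orderOf g : ℤ) = (Nat.card F : ℤ) ^ k - 1) {e : ℕ}
    (h1 : ∀ i, i < k → ¬ ((Nat.card F : ℤ) ^ k - 1 ∣ (2 * e : ℕ) * ((Nat.card F : ℤ) ^ i + 1)))
    (h2 : ∀ i, i < k → 0 < i → ¬ ((Nat.card F : ℤ) ^ k - 1 ∣ (2 * e : ℕ) * ((Nat.card F : ℤ) ^ i - 1)))
    (h3 : ∀ i, i < k → ¬ ((Nat.card F : ℤ) ^ k - 1 ∣ 2 * e * (2 - (Nat.card F : ℤ) ^ i)))
    (h4 : ∀ i, i < k → ¬ ((Nat.card F : ℤ) ^ k - 1 ∣ 2 * e * (2 + (Nat.card F : ℤ) ^ i)))
    (s : Fin (k + l) → Fˣ) (hE : zz bK (g ^ e) (fun j => s (Fin.natAdd k j)) ∈ E (plusForm (k + l) F)) :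
    ∃ (z : ↥(E (plusForm (k + l) F))) (f f' f₂ f₂' : F[X]), z.1 = zz bK (g ^ e) (fun j => s (Fin.natAdd k j)) ∧
      Dat k (fun i => (s i : F)) z.1 f f' ∧
      Dat k (fun i => ((s i * s i : Fˣ) : F)) (z * z).1 f₂ f₂' ∧
      ∀ y : Cfsg.POmega F ⇑(plusForm (k + l) F), y * toPOmega hG z * y⁻¹ ≠ toPOmega hG (z * z) := by
  have hk : finrank F K = k := by rw [finrank_eq_card_basis bK, Fintype.card_fin]
  have hu2 : Ok F k (g ^ (2 * e)) := ok_pow ho hk hk2 h1 h2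
  have hu : Ok F k (g ^ e) := by
    refine ok_pow ho hk hk2 (fun i hi h => h1 i hi ?_) (fun i hi h0 h => h2 i hi h0 ?_)
    · push_cast
      rw [mul_assoc]
      exact dvd_mul_of_dvd_right h 2
    · push_cast
      rw [mul_assoc]
      exact dvd_mul_of_dvd_right h 2
  have e1 : zz bK (g ^ e) (fun j => s (Fin.natAdd k j)) * zz bK (g ^ e) (fun j => s (Fin.natAdd k j)) =
      zz bK (g ^ (2 * e)) (fun j => (fun i => s i * s i) (Fin.natAdd k j)) := by
    rw [zz_mul, ← pow_add, ← two_mul]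
  have hE2 : zz bK (g ^ (2 * e)) (fun j => (fun i => s i * s i) (Fin.natAdd k j)) ∈ E (plusForm (k + l) F) := by
    rw [← e1]
    exact (E _).mul_mem hE hE
  refine ⟨⟨_, hE⟩, _, _, minpoly F ((g ^ (2 * e) : Kˣ) : K), minpoly F (((g ^ (2 * e))⁻¹ : Kˣ) : K), rfl,
    dat_zz bK hu s hE, ?_, ?_⟩
  · have h5 := dat_zz bK hu2 (fun i => s i * s i) hE2
    rw [← e1] at h5
    exact h5
  · have h6 := root_ne ho hk h3 h4 (Or.inl rfl)
    have h7 := root_ne ho hk h3 h4 (Or.inr rfl)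
    refine not_conj hG (P := Pz (g ^ e) (fun j => s (Fin.natAdd k j))) (aeval_Pz bK _ _) ?_ ?_
    · have h8 := zz_aeval_ne bK (s' := fun j => (fun i => s i * s i) (Fin.natAdd k j))
        (Pz_ne (g ^ e) (fun j => s (Fin.natAdd k j)) h6.1 h6.2 hu2.ne_algebraMap)
      rw [← e1] at h8
      exact h8
    · have h8 := zz_aeval_neg_ne bK (s' := fun j => (fun i => s i * s i) (Fin.natAdd k j))
        (Pz_ne (g ^ e) (fun j => s (Fin.natAdd k j)) h7.1 h7.2 hu2.neg_ne_algebraMap)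
      rw [← e1] at h8
      exact h8

end gen

section main

variable {F : Type*} [Field F] [Finite F]

/-- the field of degree `k` with a generator -/
theorem exists_field (F : Type*) [Field F] [Finite F] {k : ℕ} (hk : 2 ≤ k) : ∃ (K : Type) (_ : Field K) (_ : Finite K) (_ : Algebra F K) (g : Kˣ)
    (_ : Basis (Fin k) F K), (orderOf g : ℤ) = (Nat.card F : ℤ) ^ k - 1 := by
  obtain ⟨p, hp⟩ := CharP.exists F
  have := Fintype.ofFinite F
  have hpp : Fact p.Prime := ⟨CharP.char_is_prime F p⟩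
  have : NeZero k := ⟨by omega⟩
  have hL : finrank F (FiniteField.Extension F p k) = k := FiniteField.finrank_extension F p k
  obtain ⟨g, hg⟩ := IsCyclic.exists_generator (α := (FiniteField.Extension F p k)ˣ)
  refine ⟨FiniteField.Extension F p k, inferInstance, inferInstance, inferInstance, g, finBasisOfFinrankEq F _ hL, ?_⟩
  have h1 : orderOf g = Nat.card F ^ k - 1 := by
    rw [orderOf_eq_card_of_forall_mem_zpowers hg, Nat.card_units, FiniteField.natCard_extension]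
  rw [h1, Nat.cast_sub (Nat.one_le_pow _ _ Nat.card_pos)]
  push_cast
  rfl

theorem exists_gen {k l : ℕ} (hk : k = 3 ∨ k = 4) (hkl : 3 ≤ k + l) (hG : Good (plusForm (k + l) F)) (hq : 3 ≤ Nat.card F) :
    ∃ (z : ↥(E (plusForm (k + l) F))) (f f' f₂ f₂' : F[X]),
      Dat k (fun _ => 1) z.1 f f' ∧ Dat k (fun _ => 1) (z * z).1 f₂ f₂' ∧
      (k = 4 → l = 0 → Nat.card F = 3 → ∀ v, (z ^ 20).1 v = -v) ∧
      ∀ y : Cfsg.POmega F ⇑(plusForm (k + l) F), y * toPOmega hG z * y⁻¹ ≠ toPOmega hG (z * z) := by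
  obtain ⟨K, _, _, _, g, bK, ho⟩ := exists_field F (k := k) (by omega)
  obtain ⟨z, f, f', f₂, f₂', hz, h1, h2, h3⟩ := pair (l := l) (g := g) hG bK (by omega) ho (e := 2)
    (fun i hi => (num hq hk hi).1) (fun i hi => (num hq hk hi).2.1) (fun i hi => by
      have e1 : (2 : ℤ) * ((2 : ℕ) : ℤ) = 4 := by norm_num
      rw [e1]; exact (num hq hk hi).2.2.1) (fun i hi => by
      have e1 : (2 : ℤ) * ((2 : ℕ) : ℤ) = 4 := by norm_num
      rw [e1]; exact (num hq hk hi).2.2.2) (fun _ => 1) (by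
      have e1 : zz bK (g ^ 2) (fun _ : Fin l => (1 : Fˣ)) = tz (bb bK l) (ur g (fun _ => 1) * ur g (fun _ => 1)) := by
        rw [zz, ur_mul, pow_two]
        congr 2
        ext j
        rw [mul_one]
      rw [e1]
      exact tz_sq_mem_E hkl _ _)
  refine ⟨z, f, f', f₂, f₂', ?_, ?_, ?_, h3⟩
  · simpa using h1
  · simpa using h2
  · rintro rfl rfl h5 v
    have h6 : ((z ^ 20 : ↥(E (plusForm (4 + 0) F))) : (Fin (4 + 0) ⊕ Fin (4 + 0) → F) ≃ₗ[F] _) =
        tz (bb bK 0) (ur (g ^ 40) (fun _ => 1)) := by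
      rw [SubmonoidClass.coe_pow, hz, zz, ← map_pow]
      congr 1
      apply Units.ext
      rw [Units.val_pow_eq_pow_val, ur_val, ur_val]
      apply Prod.ext
      · show ((g ^ 2 : Kˣ) : K) ^ 20 = ((g ^ 40 : Kˣ) : K)
        rw [← Units.val_pow_eq_pow_val, ← pow_mul]
      · exact Subsingleton.elim _ _
    have h7 : g ^ 40 = -1 := by
      have h8 : (g ^ 40) ^ 2 = 1 := by
        rw [← pow_mul, ← orderOf_dvd_iff_pow_eq_one]
        rw [h5] at ho
        have h9 : orderOf g = 80 := by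
          have : (orderOf g : ℤ) = 80 := by rw [ho]; norm_num
          exact_mod_cast this
        rw [h9]
      have h9 : g ^ 40 ≠ 1 := by
        intro h10
        have h11 := Nat.le_of_dvd (by norm_num) (orderOf_dvd_of_pow_eq_one h10)
        rw [h5] at ho
        have h12 : orderOf g = 80 := by
          have : (orderOf g : ℤ) = 80 := by rw [ho]; norm_num
          exact_mod_cast this
        omega
      have h10 : ((g ^ 40 : Kˣ) : K) * ((g ^ 40 : Kˣ) : K) = 1 := by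
        rw [← Units.val_mul, ← pow_two, h8, Units.val_one]
      rcases mul_self_eq_one_iff.1 h10 with h11 | h11
      · exact absurd (Units.ext h11) h9
      · exact Units.ext (by rw [h11, Units.val_neg, Units.val_one])
    show ((z ^ 20 : ↥(E (plusForm (4 + 0) F))) : (Fin (4 + 0) ⊕ Fin (4 + 0) → F) ≃ₗ[F] _) v = -v
    rw [h6, h7, tz_apply]
    have h8 : (((ur (-1 : Kˣ) (fun _ : Fin 0 => (1 : Fˣ)) : (K × (Fin 0 → F))ˣ) : K × (Fin 0 → F)),
        (((ur (-1 : Kˣ) (fun _ : Fin 0 => (1 : Fˣ)))⁻¹ : (K × (Fin 0 → F))ˣ) : K × (Fin 0 → F))) =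
        -(1 : (K × (Fin 0 → F)) × (K × (Fin 0 → F))) := by
      apply Prod.ext
      · apply Prod.ext
        · simp [ur_val]
        · exact Subsingleton.elim _ _
      · apply Prod.ext
        · rw [ur_inv]
          simp [ur_val]
        · exact Subsingleton.elim _ _
    rw [h8, map_neg, map_one]
    rfl

/-- **`k = 4`** -/
theorem exists_four (hG : Good (plusForm 4 F)) (hq : 3 ≤ Nat.card F) :
    ∃ (z : ↥(E (plusForm 4 F))) (f f' f₂ f₂' : F[X]),
      Dat 4 (fun _ => 1) z.1 f f' ∧ Dat 4 (fun _ => 1) (z * z).1 f₂ f₂' ∧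
      (Nat.card F = 3 → ∀ v, (z ^ 20).1 v = -v) ∧
      ∀ y : Cfsg.POmega F ⇑(plusForm 4 F), y * toPOmega hG z * y⁻¹ ≠ toPOmega hG (z * z) := by
  obtain ⟨z, f, f', f₂, f₂', h1, h2, h3, h4⟩ := exists_gen (k := 4) (l := 0) (Or.inr rfl) (by norm_num) hG hq
  exact ⟨z, f, f', f₂, f₂', h1, h2, h3 rfl rfl, h4⟩

/-- **`k = 3`** -/
theorem exists_three (hG : Good (plusForm 4 F)) (hq : 3 ≤ Nat.card F) :
    ∃ (z : ↥(E (plusForm 4 F))) (f f' f₂ f₂' : F[X]),
      Dat 3 (fun _ => 1) z.1 f f' ∧ Dat 3 (fun _ => 1) (z * z).1 f₂ f₂' ∧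
      ∀ y : Cfsg.POmega F ⇑(plusForm 4 F), y * toPOmega hG z * y⁻¹ ≠ toPOmega hG (z * z) := by
  obtain ⟨z, f, f', f₂, f₂', h1, h2, -, h4⟩ := exists_gen (k := 3) (l := 1) (Or.inl rfl) (by norm_num) hG hq
  exact ⟨z, f, f', f₂, f₂', h1, h2, h4⟩

/-- the norm of a generator -/
theorem norm_gen {K : Type} [Field K] [Finite K] [Algebra F K] {g : Kˣ} (bK : Basis (Fin 2) F K) (hq : 3 ≤ Nat.card F)
    (ho : (orderOf g : ℤ) = (Nat.card F : ℤ) ^ 2 - 1) {j : ℕ} (hj : (Units.map (Algebra.norm F : K →* F) g) ^ j = 1) :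
    Nat.card F - 1 ∣ j := by
  have hk : finrank F K = 2 := by rw [finrank_eq_card_basis bK, Fintype.card_fin]
  have h1 : algebraMap F K (Algebra.norm F (g : K)) = (g : K) ^ (Nat.card F + 1) := by
    rw [FiniteField.algebraMap_norm_eq_pow]
    congr 1
    rw [Module.natCard_eq_pow_finrank (K := F) (V := K), hk]
    have e1 : Nat.card F ^ 2 - 1 = (Nat.card F + 1) * (Nat.card F - 1) := by
      rw [← one_pow 2, Nat.sq_sub_sq, one_pow]
    rw [e1]
    exact Nat.mul_div_cancel _ (by omega)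
  have h2 : g ^ ((Nat.card F + 1) * j) = 1 := by
    apply Units.ext
    have h3 : (Algebra.norm F (g : K)) ^ j = 1 := congrArg Units.val hj
    rw [Units.val_pow_eq_pow_val, pow_mul, ← h1, ← map_pow, h3, map_one, Units.val_one]
  have h3 := orderOf_dvd_of_pow_eq_one h2
  have h4 : orderOf g = (Nat.card F + 1) * (Nat.card F - 1) := by
    have h5 : (orderOf g : ℤ) = (((Nat.card F + 1) * (Nat.card F - 1) : ℕ) : ℤ) := by
      rw [ho, Nat.cast_mul, Nat.cast_sub (by omega)]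
      push_cast
      ring
    exact_mod_cast h5
  rw [h4] at h3
  exact Nat.dvd_of_mul_dvd_mul_left (by omega) h3

theorem zz_two_mem {K : Type} [Field K] [Finite K] [Algebra F K] (g : Kˣ) (bK : Basis (Fin 2) F K) :
    zz bK g (fun j : Fin 2 => (![1, 1, 1, Units.map (Algebra.norm F : K →* F) g] : Fin (2 + 2) → Fˣ) (Fin.natAdd 2 j)) ∈
      E (plusForm (2 + 2) F) := by
  have hc : Algebra.norm F (g : K) ≠ 0 := (Units.map (Algebra.norm F : K →* F) g).ne_zero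
  refine tz_mem_E (by norm_num) _ hc ?_
  rw [norm_ur]
  congr 1
  rw [Fin.prod_univ_two]
  show (1 : F) * Algebra.norm F (g : K) = _
  rw [one_mul]

/-- **`k = 2`, one class** -/
theorem exists_two_one (hq : 3 ≤ Nat.card F) :
    ∃ (z : ↥(E (plusForm 4 F))) (f f' : F[X]) (c : F), c ≠ 1 ∧ c ≠ 0 ∧ Dat 2 ![1, 1, 1, c] z.1 f f' ∧
      (Nat.card F = 3 → c = -1 ∧ z ^ 8 = 1 ∧ z ^ 4 ≠ 1) := by
  obtain ⟨K, _, _, _, g, bK, ho⟩ := exists_field F (k := 2) le_rfl
  have hk : finrank F K = 2 := by rw [finrank_eq_card_basis bK, Fintype.card_fin]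
  have hE := zz_two_mem g bK
  have hu : Ok F 2 g := by
    have h1 : Ok F 2 (g ^ 1) := ok_pow ho hk le_rfl (fun i hi => by
      rw [Nat.cast_one, one_mul]; exact (num_one hq hi).1) (fun i hi => by
      rw [Nat.cast_one, one_mul]; exact (num_one hq hi).2)
    rwa [pow_one] at h1
  have hc1 : Units.map (Algebra.norm F : K →* F) g ≠ 1 := by
    intro h
    have h1 := Nat.le_of_dvd one_pos (norm_gen bK hq ho (j := 1) (by rw [pow_one, h]))
    omega
  have hD := dat_zz bK hu _ hE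
  refine ⟨⟨_, hE⟩, minpoly F (g : K), minpoly F ((g⁻¹ : Kˣ) : K), (Units.map (Algebra.norm F : K →* F) g : Fˣ), fun h => hc1 (Units.ext h), Units.ne_zero _, ?_, ?_⟩
  · have e1 : (fun i => (((![1, 1, 1, Units.map (Algebra.norm F : K →* F) g] : Fin (2 + 2) → Fˣ) i : Fˣ) : F)) =
        (![1, 1, 1, ((Units.map (Algebra.norm F : K →* F) g : Fˣ) : F)] : Fin 4 → F) := by
      funext i
      fin_cases i <;> rfl
    rw [e1] at hD
    exact hD
  · intro h3
    have ho' : orderOf g = 8 := by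
      have : (orderOf g : ℤ) = 8 := by rw [ho, h3]; norm_num
      exact_mod_cast this
    have hcF : ∀ a : Fˣ, a ^ 2 = 1 := by
      intro a
      have h4 : a ^ Nat.card Fˣ = 1 := pow_card_eq_one'
      rw [Nat.card_units, h3] at h4
      exact h4
    set c := Units.map (Algebra.norm F : K →* F) g with hc
    refine ⟨?_, ?_, ?_⟩
    · have h4 := hcF c
      rw [pow_two] at h4
      have h5 : (c : F) * (c : F) = 1 := by rw [← Units.val_mul, h4, Units.val_one]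
      rcases mul_self_eq_one_iff.1 h5 with h6 | h6
      · exact absurd (Units.ext h6) hc1
      · exact h6
    · apply Subtype.ext
      rw [SubmonoidClass.coe_pow]
      show (tz (bb bK 2) (ur g _)) ^ 8 = 1
      rw [← map_pow]
      have h5 : (ur g (fun j : Fin 2 => (![1, 1, 1, c] : Fin (2 + 2) → Fˣ) (Fin.natAdd 2 j))) ^ 8 = 1 := by
        apply Units.ext
        rw [Units.val_pow_eq_pow_val, ur_val, Units.val_one]
        apply Prod.ext
        · show (g : K) ^ 8 = 1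
          rw [← Units.val_pow_eq_pow_val, ← ho', pow_orderOf_eq_one, Units.val_one]
        · funext j
          show (((![1, 1, 1, c] : Fin (2 + 2) → Fˣ) (Fin.natAdd 2 j) : Fˣ) : F) ^ 8 = 1
          rw [← Units.val_pow_eq_pow_val]
          have h6 : ((![1, 1, 1, c] : Fin (2 + 2) → Fˣ) (Fin.natAdd 2 j)) ^ 8 = 1 := by
            rw [show (8 : ℕ) = 2 * 4 from rfl, pow_mul, hcF, one_pow]
          rw [h6, Units.val_one]
      rw [h5, map_one]
    · intro h4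
      have h5 := congrArg Subtype.val h4
      rw [SubmonoidClass.coe_pow] at h5
      have h6 : tz (bb bK 2) ((ur g (fun j : Fin 2 => (![1, 1, 1, c] : Fin (2 + 2) → Fˣ) (Fin.natAdd 2 j))) ^ 4) = 1 := by
        rw [map_pow]
        exact h5
      have h7 : (ur g (fun j : Fin 2 => (![1, 1, 1, c] : Fin (2 + 2) → Fˣ) (Fin.natAdd 2 j))) ^ 4 = 1 :=
        tz_injective (bb bK 2) (h6.trans (map_one _).symm)
      have h8 := congrArg (fun w : (K × (Fin 2 → F))ˣ => (w : K × (Fin 2 → F)).1) h7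
      have h9 : (g : K) ^ 4 = 1 := h8
      have h10 : g ^ 4 = 1 := Units.ext (by rw [Units.val_pow_eq_pow_val, h9, Units.val_one])
      have h11 := Nat.le_of_dvd (by norm_num) (orderOf_dvd_of_pow_eq_one h10)
      omega

/-- **`k = 2`, two classes** -/
theorem exists_two (hG : Good (plusForm 4 F)) (hq : 4 ≤ Nat.card F) :
    ∃ (z : ↥(E (plusForm 4 F))) (f f' f₂ f₂' : F[X]) (c : F), c ≠ 0 ∧ c ≠ 1 ∧ c * c ≠ 1 ∧
      Dat 2 ![1, 1, 1, c] z.1 f f' ∧ Dat 2 ![1, 1, 1, c * c] (z * z).1 f₂ f₂' ∧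
      ∀ y : Cfsg.POmega F ⇑(plusForm 4 F), y * toPOmega hG z * y⁻¹ ≠ toPOmega hG (z * z) := by
  obtain ⟨K, _, _, _, g, bK, ho⟩ := exists_field F (k := 2) le_rfl
  have hk : finrank F K = 2 := by rw [finrank_eq_card_basis bK, Fintype.card_fin]
  have hc : ∀ j, 0 < j → j < 3 → (Units.map (Algebra.norm F : K →* F) g) ^ j ≠ 1 := by
    intro j hj0 hj h
    have h1 := Nat.le_of_dvd hj0 (norm_gen bK (by omega) ho h)
    omega
  obtain ⟨z, f, f', f₂, f₂', hz, h1, h2, h3⟩ := pair (l := 2) (g := g) hG bK le_rfl ho (e := 1)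
    (fun i hi => (num_two hq hi).1) (fun i hi => (num_two hq hi).2.1) (fun i hi => by
      rw [Nat.cast_one, mul_one]; exact (num_two hq hi).2.2.1) (fun i hi => by
      rw [Nat.cast_one, mul_one]; exact (num_two hq hi).2.2.2) ![1, 1, 1, Units.map (Algebra.norm F : K →* F) g] (by
      rw [pow_one]
      exact zz_two_mem g bK)
  refine ⟨z, f, f', f₂, f₂', (Units.map (Algebra.norm F : K →* F) g : Fˣ), Units.ne_zero _, ?_, ?_, ?_, ?_, h3⟩
  · intro h
    exact hc 1 one_pos (by norm_num) (by rw [pow_one]; exact Units.ext h)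
  · intro h
    exact hc 2 two_pos (by norm_num) (by rw [pow_two]; exact Units.ext h)
  · have e1 : (fun i => (((![1, 1, 1, Units.map (Algebra.norm F : K →* F) g] : Fin (2 + 2) → Fˣ) i : Fˣ) : F)) =
        (![1, 1, 1, ((Units.map (Algebra.norm F : K →* F) g : Fˣ) : F)] : Fin 4 → F) := by
      funext i
      fin_cases i <;> rfl
    rw [e1] at h1
    exact h1
  · have e1 : (fun i => (((![1, 1, 1, Units.map (Algebra.norm F : K →* F) g] : Fin (2 + 2) → Fˣ) i *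
        (![1, 1, 1, Units.map (Algebra.norm F : K →* F) g] : Fin (2 + 2) → Fˣ) i : Fˣ) : F)) =
        (![1, 1, 1, ((Units.map (Algebra.norm F : K →* F) g : Fˣ) : F) *
          ((Units.map (Algebra.norm F : K →* F) g : Fˣ) : F)] : Fin 4 → F) := by
      funext i
      fin_cases i
      · exact congrArg Units.val (one_mul (1 : Fˣ))
      · exact congrArg Units.val (one_mul (1 : Fˣ))
      · exact congrArg Units.val (one_mul (1 : Fˣ))
      · rfl
    rw [e1] at h2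
    exact h2

end main

end Cfsg.Agent.H292.OZ
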